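import Mathlib
import Cfsg.Agent.Lib.Helper78.S4415.Defs

/-!
# S4415, package [RED]: interface of the sub-packages

`K = O_{3'}(S)`, `R = ⁅K, ⟨b⟩⁆`, `H = R ⊔ ⟨b⟩`, `F₀ = movR ρ R = [E, R]`, `F₁ = fixR ρ R = C_E(R)`.
Only definitions and package statements (`Prop`s); the assembly is in `RedAsm.lean`.
Mathlib's `⁅g, h⁆ = g * h * g⁻¹ * h⁻¹`.
-/

set_option autoImplicit false

namespace Cfsg.Agent.Lib.Helper48.S4415

open Cfsg.Agent.Lib.Helper78.S4415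

universe u v

section defs

variable {S : Type u} [Group S] {E : Type v} [AddCommGroup E] [Module (ZMod 3) E]

/-- the fixed points `C_E(R)` of a subgroup `R` -/
def fixR (ρ : Representation (ZMod 3) S E) (R : Subgroup S) : Submodule (ZMod 3) E where
  carrier := {v | ∀ r ∈ R, ρ r v = v}
  add_mem' := by
    intro x y hx hy r hr
    rw [map_add, hx r hr, hy r hr]
  zero_mem' := by
    intro r _
    rw [map_zero]
  smul_mem' := by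
    intro c x hx r hr
    rw [map_smul, hx r hr]

theorem mem_fixR (ρ : Representation (ZMod 3) S E) (R : Subgroup S) (v : E) :
    v ∈ fixR ρ R ↔ ∀ r ∈ R, ρ r v = v := Iff.rfl

/-- the commutator module `[E, R]`, spanned by all `ρ r v - v`, `r ∈ R` -/
def movR (ρ : Representation (ZMod 3) S E) (R : Subgroup S) : Submodule (ZMod 3) E :=
  Submodule.span (ZMod 3) {w : E | ∃ r ∈ R, ∃ v : E, w = ρ r v - v}

/-- restriction of a representation to a subgroup `H` and an `H`-invariant submodule `F` -/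
def resRep (ρ : Representation (ZMod 3) S E) (H : Subgroup S) (F : Submodule (ZMod 3) E)
    (hF : ∀ g ∈ H, ∀ v ∈ F, ρ g v ∈ F) : Representation (ZMod 3) ↥H ↥F where
  toFun g := (ρ (g : S)).restrict (fun v hv => hF g g.2 v hv)
  map_one' := by
    apply LinearMap.ext
    intro v
    apply Subtype.ext
    simp
  map_mul' := by
    intro g h
    apply LinearMap.ext
    intro v
    apply Subtype.ext
    simp

theorem resRep_apply (ρ : Representation (ZMod 3) S E) (H : Subgroup S)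
    (F : Submodule (ZMod 3) E) (hF : ∀ g ∈ H, ∀ v ∈ F, ρ g v ∈ F) (g : ↥H) (v : ↥F) :
    ((resRep ρ H F hF g v : ↥F) : E) = ρ (g : S) (v : E) := rfl

end defs

/-- the group-theoretic fields of `Setup` -/
structure GrpSetup {G : Type u} [Group G] (R : Subgroup G) (b : G) (Q : Subgroup G) : Prop where
  normal : R.Normal
  cop : (Nat.card R).Coprime 3
  solv : Group.IsSolvable R
  b3 : b ^ 3 = 1
  gen : R ⊔ Subgroup.zpowers b = ⊤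
  comm : ⁅R, Subgroup.zpowers b⁆ = R
  QR : Q ≤ R
  Q4 : Nat.card Q = 4
  Q2 : ∀ q ∈ Q, q * q = 1
  Qnorm : ∀ q ∈ Q, b * q * b⁻¹ ∈ Q
  Qmove : ∃ q ∈ Q, b * q * b⁻¹ ≠ q

/-! ## Sub-packages of [RED] -/

/-- [R-HH] (Hall-Higman 1.2.3 in `S / O_{3'}(S)`): an element `b` of the centre of a Sylow
3-subgroup of a finite solvable group lies in a normal subgroup `T` (the preimage of
`O_3(S / O_{3'}(S))`) all of whose elements have a `3`-power power in `O_{3'}(S)`. -/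
def PkgHH : Prop :=
  ∀ {S : Type u} [Group S] [Finite S] [Group.IsSolvable S] (P : Sylow 3 S) (b : S),
    b ∈ (P : Subgroup S) → (∀ x ∈ (P : Subgroup S), b * x = x * b) →
    ∃ T : Subgroup S, T.Normal ∧ b ∈ T ∧ ∀ x ∈ T, ∃ n : ℕ, x ^ (3 ^ n) ∈ Cfsg.pPrimeCore 3 S

/-- [R-QK] a four-group `Q` normalized but not centralized by `b` (`b ^ 3 = 1`, `b ∈ T`, `T` normal
with `T / K` a `3`-group) lies in `⁅K, ⟨b⟩⁆`. -/
def PkgQK : Prop :=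
  ∀ {S : Type u} [Group S] [Finite S] (K T : Subgroup S) (b : S) (Q : Subgroup S),
    T.Normal → b ∈ T → (∀ x ∈ T, ∃ n : ℕ, x ^ (3 ^ n) ∈ K) →
    b ^ 3 = 1 → Nat.card ↥Q = 4 → (∀ q ∈ Q, q * q = 1) →
    (∀ q ∈ Q, b * q * b⁻¹ ∈ Q) → (∃ q ∈ Q, b * q * b⁻¹ ≠ q) →
    Q ≤ ⁅K, Subgroup.zpowers b⁆

/-- [R-R3] coprime action of `⟨b⟩` on `K = O_{3'}(S)`: `R = ⁅K, ⟨b⟩⁆` satisfies `⁅R, ⟨b⟩⁆ = R`,
has order prime to 3 and is normalized by `R ⊔ ⟨b⟩`. -/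
def PkgR3 : Prop :=
  ∀ {S : Type u} [Group S] [Finite S] (b : S), b ^ 3 = 1 →
    ⁅⁅Cfsg.pPrimeCore 3 S, Subgroup.zpowers b⁆, Subgroup.zpowers b⁆ =
      ⁅Cfsg.pPrimeCore 3 S, Subgroup.zpowers b⁆ ∧
    (Nat.card ↥⁅Cfsg.pPrimeCore 3 S, Subgroup.zpowers b⁆).Coprime 3 ∧
    (∀ g ∈ ⁅Cfsg.pPrimeCore 3 S, Subgroup.zpowers b⁆ ⊔ Subgroup.zpowers b,
      ∀ r ∈ ⁅Cfsg.pPrimeCore 3 S, Subgroup.zpowers b⁆,
        g * r * g⁻¹ ∈ ⁅Cfsg.pPrimeCore 3 S, Subgroup.zpowers b⁆)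

/-- [R-JORD] the Jordan condition on `E` from the one on `E₀`. -/
def PkgJord : Prop :=
  ∀ {S : Type u} [Group S] {E : Type v} [AddCommGroup E] [Module (ZMod 3) E] [Finite E]
    (ρ : Representation (ZMod 3) S E) (b : S), b ^ 3 = 1 →
    ∀ (E₀ E₁ : Submodule (ZMod 3) E), E₀ ⊓ E₁ = ⊥ → E₀ ⊔ E₁ = ⊤ →
    (∀ v ∈ E₁, ρ b v = v) → (∀ v ∈ E₀, ρ b v ∈ E₀) → Nat.card ↥E₀ = 27 →
    (∃ v ∈ E₀, ρ b (ρ b v - v) - (ρ b v - v) ≠ 0) → Jordan ρ b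

/-- [R-DEC] coprime action: `E = [E, R] ⊕ C_E(R)`. -/
def PkgDec : Prop :=
  ∀ {S : Type u} [Group S] [Finite S] {E : Type v} [AddCommGroup E] [Module (ZMod 3) E]
    (ρ : Representation (ZMod 3) S E) (R : Subgroup S), (Nat.card ↥R).Coprime 3 →
    movR ρ R ⊓ fixR ρ R = ⊥ ∧ movR ρ R ⊔ fixR ρ R = ⊤

/-- [R-INV] `[E, R]` and `C_E(R)` are invariant under every subgroup normalizing `R`. -/
def PkgInv : Prop :=
  ∀ {S : Type u} [Group S] {E : Type v} [AddCommGroup E] [Module (ZMod 3) E]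
    (ρ : Representation (ZMod 3) S E) (R H : Subgroup S),
    (∀ g ∈ H, ∀ r ∈ R, g * r * g⁻¹ ∈ R) →
    (∀ g ∈ H, ∀ v ∈ movR ρ R, ρ g v ∈ movR ρ R) ∧ (∀ g ∈ H, ∀ v ∈ fixR ρ R, ρ g v ∈ fixR ρ R)

/-- [R-IRR] `b` fixes `C_E(R)` pointwise and `R ⊔ ⟨b⟩` is irreducible on `[E, R]`. -/
def PkgIrr : Prop :=
  ∀ {S : Type u} [Group S] [Finite S] {E : Type v} [AddCommGroup E] [Module (ZMod 3) E] [Finite E]
    (ρ : Representation (ZMod 3) S E) (R : Subgroup S) (b : S) (Q : Subgroup S),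
    Frame ρ b Q → Q ≤ R → ⁅R, Subgroup.zpowers b⁆ = R →
    movR ρ R ⊓ fixR ρ R = ⊥ →
    (∀ v ∈ fixR ρ R, ρ b v = v) ∧
    (∀ N : Submodule (ZMod 3) E, N ≤ movR ρ R →
      (∀ r ∈ R ⊔ Subgroup.zpowers b, ∀ v ∈ N, ρ r v ∈ N) → N = ⊥ ∨ N = movR ρ R)

/-- [R-FAITH] `R ⊔ ⟨b⟩` is faithful on `[E, R]`. -/
def PkgFaith : Prop :=
  ∀ {S : Type u} [Group S] {E : Type v} [AddCommGroup E] [Module (ZMod 3) E]
    (ρ : Representation (ZMod 3) S E) (R : Subgroup S) (b : S), Function.Injective ρ →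
    movR ρ R ⊔ fixR ρ R = ⊤ → (∀ v ∈ fixR ρ R, ρ b v = v) →
    ∀ r ∈ R ⊔ Subgroup.zpowers b, (∀ v ∈ movR ρ R, ρ r v = v) → r = 1

/-- [R-SETUPG] the group-theoretic fields of `Setup` inside `H = R ⊔ ⟨b⟩`. -/
def PkgSetupG : Prop :=
  ∀ {S : Type u} [Group S] [Finite S] [Group.IsSolvable S] (R : Subgroup S) (b : S)
    (Q : Subgroup S) (hbH : b ∈ R ⊔ Subgroup.zpowers b),
    (∀ g ∈ R ⊔ Subgroup.zpowers b, ∀ r ∈ R, g * r * g⁻¹ ∈ R) → (Nat.card ↥R).Coprime 3 →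
    b ^ 3 = 1 → ⁅R, Subgroup.zpowers b⁆ = R → Q ≤ R → Nat.card ↥Q = 4 → (∀ q ∈ Q, q * q = 1) →
    (∀ q ∈ Q, b * q * b⁻¹ ∈ Q) → (∃ q ∈ Q, b * q * b⁻¹ ≠ q) →
    GrpSetup (R.subgroupOf (R ⊔ Subgroup.zpowers b)) (⟨b, hbH⟩ : ↥(R ⊔ Subgroup.zpowers b))
      (Q.subgroupOf (R ⊔ Subgroup.zpowers b))

/-- [R-SETUPM] the module fields of `Setup` for the restricted representation. -/
def PkgSetupM : Prop :=
  ∀ {S : Type u} [Group S] [Finite S] {E : Type v} [AddCommGroup E] [Module (ZMod 3) E] [Finite E]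
    (ρ : Representation (ZMod 3) S E) (H : Subgroup S) (F F' : Submodule (ZMod 3) E) (b : S)
    (hbH : b ∈ H) (hF : ∀ g ∈ H, ∀ v ∈ F, ρ g v ∈ F),
    (∀ r ∈ H, (∀ v ∈ F, ρ r v = v) → r = 1) →
    (∀ N : Submodule (ZMod 3) E, N ≤ F → (∀ r ∈ H, ∀ v ∈ N, ρ r v ∈ N) → N = ⊥ ∨ N = F) →
    F ⊔ F' = ⊤ → (∀ v ∈ F', ρ b v = v) → Jordan ρ b →
    Function.Injective (resRep ρ H F hF) ∧
    (∀ N : Submodule (ZMod 3) ↥F, (∀ g : ↥H, ∀ v ∈ N, resRep ρ H F hF g v ∈ N) →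
      N = ⊥ ∨ N = ⊤) ∧
    Jordan (resRep ρ H F hF) (⟨b, hbH⟩ : ↥H)

/-- [R-TRANS] transport of the conclusion from a subgroup of `↥H` to its image in `S`. -/
def PkgTrans : Prop :=
  ∀ {S : Type u} [Group S] (H : Subgroup S) (X : Subgroup ↥H), Concl X → Concl (X.map H.subtype)

end Cfsg.Agent.Lib.Helper48.S4415
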