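import Mathlib
import Cfsg.Agent.Lib.Helper48.S4415.RedDefs

/-!
# S4415, sub-package [R-DEC] of [RED]: `E = [E, R] ⊕ C_E(R)` for `|R|` prime to 3
-/

set_option autoImplicit false

namespace Cfsg.Agent.Lib.Helper48.S4415

open Cfsg.Agent.Lib.Helper78.S4415

universe u v

/-- [R-DEC] -/
theorem pkgDec : PkgDec.{u, v} := by
  intro S _ _ E _ _ ρ R hcop
  classical
  haveI : Fintype ↥R := Fintype.ofFinite _
  haveI : Fact (Nat.Prime 3) := ⟨Nat.prime_three⟩
  obtain ⟨n, hn⟩ : ∃ n : ZMod 3, n = (Nat.card ↥R : ZMod 3) := ⟨_, rfl⟩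
  have hn0 : n ≠ 0 := by
    intro h
    rw [hn, ZMod.natCast_eq_zero_iff] at h
    exact (Nat.Prime.coprime_iff_not_dvd Nat.prime_three).mp hcop.symm h
  have hcs : ∀ v : E, (Finset.univ : Finset ↥R).card • v = n • v := by
    intro v
    rw [hn, Finset.card_univ, ← Nat.card_eq_fintype_card, Nat.cast_smul_eq_nsmul]
  -- the averaging operator
  let e : E →ₗ[ZMod 3] E := n⁻¹ • ∑ r : ↥R, ρ (r : S)
  have he : ∀ v, e v = n⁻¹ • ∑ r : ↥R, ρ (r : S) v := by
    intro v
    simp [e, LinearMap.sum_apply]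
  have h1 : ∀ v, e v ∈ fixR ρ R := by
    intro v s hs
    rw [he, map_smul, map_sum]
    congr 1
    have hre : ∀ r : ↥R, ρ s (ρ (r : S) v) = ρ ((⟨s, hs⟩ * r : ↥R) : S) v := by
      intro r
      rw [Subgroup.coe_mul, map_mul]
      rfl
    simp_rw [hre]
    exact Fintype.sum_equiv (Equiv.mulLeft (⟨s, hs⟩ : ↥R)) _ _ (fun r => rfl)
  have h2 : ∀ v, v - e v ∈ movR ρ R := by
    intro v
    have hv : v - e v = n⁻¹ • ∑ r : ↥R, (v - ρ (r : S) v) := by
      rw [he, Finset.sum_sub_distrib, smul_sub, Finset.sum_const, hcs, smul_smul,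
        inv_mul_cancel₀ hn0, one_smul]
    rw [hv]
    apply Submodule.smul_mem
    apply Submodule.sum_mem
    intro r _
    have hr : v - ρ (r : S) v = -(ρ (r : S) v - v) := by abel
    rw [hr]
    exact Submodule.neg_mem _ (Submodule.subset_span ⟨r, r.2, v, rfl⟩)
  have h3 : ∀ w ∈ movR ρ R, e w = 0 := by
    intro w hw
    refine Submodule.span_induction ?_ ?_ ?_ ?_ hw
    · rintro w ⟨s, hs, v, rfl⟩
      rw [map_sub, sub_eq_zero, he, he]
      congr 1
      have hre : ∀ r : ↥R, ρ (r : S) (ρ s v) = ρ ((r * ⟨s, hs⟩ : ↥R) : S) v := by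
        intro r
        rw [Subgroup.coe_mul, map_mul]
        rfl
      simp_rw [hre]
      exact Fintype.sum_equiv (Equiv.mulRight (⟨s, hs⟩ : ↥R)) _ _ (fun r => rfl)
    · exact map_zero e
    · intro x y _ _ hx hy
      rw [map_add, hx, hy, add_zero]
    · intro c x _ hx
      rw [map_smul, hx, smul_zero]
  have h4 : ∀ w ∈ fixR ρ R, e w = w := by
    intro w hw
    rw [he]
    have hre : ∀ r : ↥R, ρ (r : S) w = w := fun r => hw r r.2
    simp_rw [hre]
    rw [Finset.sum_const, hcs, smul_smul, inv_mul_cancel₀ hn0, one_smul]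
  constructor
  · rw [eq_bot_iff]
    intro w hw
    rw [Submodule.mem_bot]
    obtain ⟨hw0, hw1⟩ := Submodule.mem_inf.mp hw
    rw [← h4 w hw1, h3 w hw0]
  · rw [eq_top_iff]
    intro v _
    have hv : v = (v - e v) + e v := by abel
    rw [hv]
    exact Submodule.add_mem_sup (h2 v) (h1 v)

end Cfsg.Agent.Lib.Helper48.S4415
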