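import Mathlib
import Cfsg.Agent.Lib.Helper48.S4415.RedDefs
import Cfsg.Agent.Lib.Helper22.PConstr
import Cfsg.Agent.Lib.Helper22.PComp
import Cfsg.Agent.Lib.Helper22.Comp
import Cfsg.Agent.Lib.Helper63.PLength

/-!
# S4415, sub-package [R-HH] of [RED]
-/

set_option autoImplicit false

namespace Cfsg.Agent.Lib.Helper48.S4415

open Cfsg.Agent.Lib.Helper78.S4415

universe u

/-- a finite solvable group has trivial layer -/
theorem layer_eq_bot_of_isSolvable (Y : Type u) [Group Y] [Group.IsSolvable Y] :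
    Cfsg.layer Y = ⊥ := by
  unfold Cfsg.layer
  have h : {C : Subgroup Y | Cfsg.IsComponent C} = ∅ := by
    ext C
    simp only [Set.mem_setOf_eq, Set.mem_empty_iff_false, iff_false]
    intro hC
    have hs : Group.IsSolvable (⊤ : Subgroup Y) := inferInstance
    exact Cfsg.Agent.Lib.Helper22.IsComponent.not_le_solvable hC hs le_top
  rw [h, sSup_empty]

/-- [R-HH] -/
theorem pkgHH : PkgHH.{u} := by
  intro S _ _ _ P b hbP hbc
  haveI : Fact (Nat.Prime 3) := ⟨Nat.prime_three⟩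
  haveI hKn : (Cfsg.pPrimeCore 3 S).Normal := Cfsg.Agent.Lib.Helper22.pPrimeCore_normal' 3 S
  have hO : Cfsg.pPrimeCore 3 (S ⧸ Cfsg.pPrimeCore 3 S) = ⊥ :=
    Cfsg.Agent.Lib.Helper22.pPrimeCore_quotient_eq_bot 3 S
  have hE : Cfsg.layer (S ⧸ Cfsg.pPrimeCore 3 S) = ⊥ := layer_eq_bot_of_isSolvable _
  have hC := Cfsg.Agent.Lib.Helper22.centralizer_pCore_le_of_layer_eq_bot hO hE
  have hsurj : Function.Surjective (QuotientGroup.mk' (Cfsg.pPrimeCore 3 S)) :=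
    QuotientGroup.mk'_surjective _
  refine ⟨(Cfsg.pCore 3 (S ⧸ Cfsg.pPrimeCore 3 S)).comap
    (QuotientGroup.mk' (Cfsg.pPrimeCore 3 S)), ?_, ?_, ?_⟩
  · exact Subgroup.Normal.comap (Cfsg.Agent.Lib.Helper22.pCore_normal' 3 _) _
  · rw [Subgroup.mem_comap]
    apply hC
    rw [Subgroup.mem_centralizer_iff]
    intro y hy
    have h1 : Cfsg.pCore 3 (S ⧸ Cfsg.pPrimeCore 3 S) ≤
        ((P.mapSurjective hsurj : Sylow 3 (S ⧸ Cfsg.pPrimeCore 3 S)) :
          Subgroup (S ⧸ Cfsg.pPrimeCore 3 S)) :=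
      Cfsg.Agent.Lib.Helper63.pCore_le_sylow' 3 _
    have hy' := h1 hy
    rw [Sylow.coe_mapSurjective] at hy'
    obtain ⟨x, hx, rfl⟩ := Subgroup.mem_map.mp hy'
    rw [← map_mul, ← map_mul, hbc x hx]
  · intro x hx
    have hp := Cfsg.Agent.Lib.Helper63.pCore_isPGroup' 3 (S ⧸ Cfsg.pPrimeCore 3 S)
    obtain ⟨n, hn⟩ := hp ⟨QuotientGroup.mk' (Cfsg.pPrimeCore 3 S) x, hx⟩
    refine ⟨n, ?_⟩
    have h1 : (QuotientGroup.mk' (Cfsg.pPrimeCore 3 S) x) ^ (3 ^ n) = 1 := by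
      simpa using congrArg Subtype.val hn
    rw [← map_pow] at h1
    exact (QuotientGroup.eq_one_iff _).mp h1

end Cfsg.Agent.Lib.Helper48.S4415
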