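import Mathlib
import Cfsg.Agent.Lib.Helper78.S4415.Defs
import Cfsg.Agent.Lib.Helper48.S4415.RedDefs

/-!
# S4415, package [RED]: assembly from the sub-packages
-/

set_option autoImplicit false

namespace Cfsg.Agent.Lib.Helper48.S4415

open Cfsg.Agent.Lib.Helper78.S4415

universe u v

theorem pkgRed_of (hFrame : PkgFrame.{u, v}) (hHH : PkgHH.{u}) (hQK : PkgQK.{u})
    (hR3 : PkgR3.{u}) (hJord : PkgJord.{u, v}) (hDec : PkgDec.{u, v}) (hInv : PkgInv.{u, v})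
    (hIrr : PkgIrr.{u, v}) (hFaith : PkgFaith.{u, v}) (hSetupG : PkgSetupG.{u})
    (hSetupM : PkgSetupM.{u, v}) (hTrans : PkgTrans.{u}) : PkgRed.{u, v} := by
  intro hAbs S _ _ _ E _ _ _ ρ hfaith _hO3 B hB b hb E₀ E₁ hE01 hE01' hE1 hE0inv hE0 hind Q hQ hQ4
    hBQ hBQ' P hBZ
  subst hb
  -- basic facts on `b`
  have hb3 : b ^ 3 = 1 := by
    have h1 : orderOf b = 3 := by rw [← Nat.card_zpowers]; exact hB
    rw [← h1]; exact pow_orderOf_eq_one b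
  have hbB : b ∈ Subgroup.zpowers b := Subgroup.mem_zpowers b
  have hbP : b ∈ (P : Subgroup S) ∧ ∀ x ∈ (P : Subgroup S), b * x = x * b := by
    have h1 : b ∈ (Subgroup.center ↥(P : Subgroup S)).map (P : Subgroup S).subtype := by
      rw [hBZ]; exact hbB
    obtain ⟨c, hc, hcb⟩ := Subgroup.mem_map.mp h1
    have hcb' : (c : S) = b := hcb
    refine ⟨by rw [← hcb']; exact c.2, ?_⟩
    intro x hx
    have h2 := (Subgroup.mem_center_iff.mp hc) ⟨x, hx⟩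
    have h3 := congrArg Subtype.val h2
    rw [Subgroup.coe_mul, Subgroup.coe_mul, hcb'] at h3
    exact h3.symm
  have hQ2 : ∀ q ∈ Q, q * q = 1 := by
    intro q hq
    have := hQ.2 q hq
    rwa [pow_two] at this
  have hQnorm : ∀ q ∈ Q, b * q * b⁻¹ ∈ Q := by
    intro q hq
    exact ((Subgroup.mem_normalizer_iff.mp (hBQ hbB)) q).mp hq
  have hQmove : ∃ q ∈ Q, b * q * b⁻¹ ≠ q := by
    by_contra hcon
    push_neg at hcon
    apply hBQ'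
    rw [Subgroup.zpowers_le, Subgroup.mem_centralizer_iff]
    intro q hq
    have h1 := hcon q hq
    calc q * b = (b * q * b⁻¹) * b := by rw [h1]
      _ = b * q := by group
  -- the sub-packages
  obtain ⟨T, hTn, hbT, hT⟩ := hHH P b hbP.1 hbP.2
  have hQR : Q ≤ ⁅Cfsg.pPrimeCore 3 S, Subgroup.zpowers b⁆ :=
    hQK (Cfsg.pPrimeCore 3 S) T b Q hTn hbT hT hb3 hQ4 hQ2 hQnorm hQmove
  obtain ⟨hcomm, hcop, hnorm⟩ := hR3 (S := S) b hb3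
  have hJ : Jordan ρ b := hJord ρ b hb3 E₀ E₁ hE01 hE01' hE1 hE0inv hE0 hind
  have hFr : Frame ρ b Q := hFrame ρ b Q hfaith hb3 hQ4 hQ2 hQnorm hQmove hJ
  obtain ⟨hdec1, hdec2⟩ := hDec ρ ⁅Cfsg.pPrimeCore 3 S, Subgroup.zpowers b⁆ hcop
  obtain ⟨hinv0, hinv1⟩ := hInv ρ ⁅Cfsg.pPrimeCore 3 S, Subgroup.zpowers b⁆
    (⁅Cfsg.pPrimeCore 3 S, Subgroup.zpowers b⁆ ⊔ Subgroup.zpowers b) hnorm
  obtain ⟨hfixb, hirr⟩ := hIrr ρ ⁅Cfsg.pPrimeCore 3 S, Subgroup.zpowers b⁆ b Q hFr hQR hcomm hdec1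
  have hfaithF := hFaith ρ ⁅Cfsg.pPrimeCore 3 S, Subgroup.zpowers b⁆ b hfaith hdec2 hfixb
  have hbH : b ∈ ⁅Cfsg.pPrimeCore 3 S, Subgroup.zpowers b⁆ ⊔ Subgroup.zpowers b :=
    (le_sup_right : Subgroup.zpowers b ≤ _) hbB
  have hG := hSetupG ⁅Cfsg.pPrimeCore 3 S, Subgroup.zpowers b⁆ b Q hbH hnorm hcop hb3 hcomm hQR
    hQ4 hQ2 hQnorm hQmove
  obtain ⟨hM1, hM2, hM3⟩ := hSetupM ρ
    (⁅Cfsg.pPrimeCore 3 S, Subgroup.zpowers b⁆ ⊔ Subgroup.zpowers b)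
    (movR ρ ⁅Cfsg.pPrimeCore 3 S, Subgroup.zpowers b⁆)
    (fixR ρ ⁅Cfsg.pPrimeCore 3 S, Subgroup.zpowers b⁆) b hbH hinv0 hfaithF hirr hdec2 hfixb hJ
  have hSetup : Setup (resRep ρ (⁅Cfsg.pPrimeCore 3 S, Subgroup.zpowers b⁆ ⊔ Subgroup.zpowers b)
      (movR ρ ⁅Cfsg.pPrimeCore 3 S, Subgroup.zpowers b⁆) hinv0)
      (⁅Cfsg.pPrimeCore 3 S, Subgroup.zpowers b⁆.subgroupOf
        (⁅Cfsg.pPrimeCore 3 S, Subgroup.zpowers b⁆ ⊔ Subgroup.zpowers b))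
      (⟨b, hbH⟩ : ↥(⁅Cfsg.pPrimeCore 3 S, Subgroup.zpowers b⁆ ⊔ Subgroup.zpowers b))
      (Q.subgroupOf (⁅Cfsg.pPrimeCore 3 S, Subgroup.zpowers b⁆ ⊔ Subgroup.zpowers b)) :=
    { faith := hM1
      irr := hM2
      normal := hG.normal
      cop := hG.cop
      solv := hG.solv
      b3 := hG.b3
      gen := hG.gen
      comm := hG.comm
      QR := hG.QR
      Q4 := hG.Q4
      Q2 := hG.Q2
      Qnorm := hG.Qnorm
      Qmove := hG.Qmove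
      jordan := hM3 }
  have hC := hAbs _ _ _ _ hSetup
  have hC' := hTrans _ _ hC
  rw [Subgroup.map_subgroupOf_eq_of_le le_sup_left] at hC'
  exact ⟨hC', movR ρ ⁅Cfsg.pPrimeCore 3 S, Subgroup.zpowers b⁆,
    fixR ρ ⁅Cfsg.pPrimeCore 3 S, Subgroup.zpowers b⁆, hdec1, hdec2,
    fun r hr v hv => hv r hr, hinv0, hfaithF, hirr⟩

end Cfsg.Agent.Lib.Helper48.S4415
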