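import Mathlib
import Cfsg.Agent.Lib.Helper78.S4415.Defs
import Cfsg.Agent.Lib.Helper48.S4415.RedDefs
import Cfsg.Agent.Lib.Helper48.S4415.RedAsm
import Cfsg.Agent.Lib.Helper48.S4415.RHH
import Cfsg.Agent.Lib.Helper48.S4415.RDec
import Cfsg.Agent.Lib.Helper67.S4415.Frame
import Cfsg.Agent.Lib.Helper79.S4415.QK
import Cfsg.Agent.Lib.Helper79.S4415.RInv
import Cfsg.Agent.Lib.Helper79.S4415.RFaith
import Cfsg.Agent.Lib.Helper80.S4415.RR3
import Cfsg.Agent.Lib.Helper80.S4415.RJord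
import Cfsg.Agent.Lib.Helper84.S4415.RIrr
import Cfsg.Agent.Lib.Helper61.S4415.SetupG
import Cfsg.Agent.Lib.Helper87.S4415.SetupM
import Cfsg.Agent.Lib.Helper45.S4415.Trans

/-!
# S4415, package [RED]: the reduction of S4415 to the abstract structure theorem
-/

set_option autoImplicit false

namespace Cfsg.Agent.Lib.Helper48.S4415

open Cfsg.Agent.Lib.Helper78.S4415

universe u v

/-- [RED] -/
theorem pkgRed : PkgRed.{u, v} :=
  pkgRed_of Cfsg.Agent.Lib.Helper67.S4415.pkgFrame pkgHH Cfsg.Agent.Lib.Helper79.S4415.pkgQK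
    Cfsg.Agent.Lib.Helper80.S4415.pkgR3 Cfsg.Agent.Lib.Helper80.S4415.pkgJord pkgDec
    Cfsg.Agent.Lib.Helper79.S4415.pkgInv Cfsg.Agent.Lib.Helper84.S4415.pkgIrr
    Cfsg.Agent.Lib.Helper79.S4415.pkgFaith Cfsg.Agent.Lib.Helper61.S4415.pkgSetupG
    Cfsg.Agent.Lib.Helper87.S4415.pkgSetupM Cfsg.Agent.Lib.Helper45.S4415.pkgTrans

end Cfsg.Agent.Lib.Helper48.S4415
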