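import Mathlib
import Cfsg.Agent.Lib.Helper65.S4415.ExtDefs

/-!
# S4415, sub-package [X-R3] of [EXT]: `R` has order 32 and is of extraspecial type
-/

set_option autoImplicit false

namespace Cfsg.Agent.Lib.Helper48.S4415

open Cfsg.Agent.Lib.Helper78.S4415 Cfsg.Agent.Lib.Helper65.S4415

universe u v

/-- decidable equality of quaternions over `ZMod 3` (componentwise) -/
def decEqH : DecidableEq H := fun a b =>
  decidable_of_iff (a.re = b.re ∧ a.imI = b.imI ∧ a.imJ = b.imJ ∧ a.imK = b.imK)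
    (by rw [Quaternion.ext_iff])

attribute [local instance] decEqH

/-- the eight elements of `Q8` -/
def e8 : Fin 8 → H := ![1, -1, qi, -qi, qj, -qj, qk, -qk]

/-- sign representatives -/
def e4 : Fin 4 → H := ![1, qi, qj, qk]

/-- a quaternion from its four coordinates -/
def mkH (t : ZMod 3 × ZMod 3 × ZMod 3 × ZMod 3) : H := ⟨t.1, t.2.1, t.2.2.1, t.2.2.2⟩

theorem mkH_eta (h : H) : mkH (h.re, h.imI, h.imJ, h.imK) = h := rfl

theorem q8_exists (p : H) (hp : Q8 p) : ∃ i : Fin 8, p = e8 i := by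
  rcases hp with h | h | h | h | h | h | h | h
  · exact ⟨0, h⟩
  · exact ⟨1, h⟩
  · exact ⟨2, h⟩
  · exact ⟨3, h⟩
  · exact ⟨4, h⟩
  · exact ⟨5, h⟩
  · exact ⟨6, h⟩
  · exact ⟨7, h⟩

set_option maxRecDepth 100000 in
theorem d_cancel : ∀ i j : Fin 8, ∀ t : ZMod 3 × ZMod 3 × ZMod 3 × ZMod 3,
    e8 i * mkH t = e8 j * mkH t → mkH t = 0 ∨ i = j := by decide

set_option maxRecDepth 100000 in
theorem d_sq : ∀ i : Fin 8, e8 i * e8 i = 1 ∨ e8 i * e8 i = -1 := by decide

set_option maxRecDepth 100000 in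
theorem d_comm : ∀ i j : Fin 8, e8 i * e8 j = e8 j * e8 i ∨ e8 i * e8 j = -(e8 j * e8 i) := by
  decide

set_option maxRecDepth 100000 in
theorem d_mul : ∀ i j : Fin 8, ∃ k : Fin 8, e8 i * e8 j = e8 k := by decide

set_option maxRecDepth 100000 in
theorem d_neg : ∀ i : Fin 8, ∃ k : Fin 8, -e8 i = e8 k := by decide

set_option maxRecDepth 100000 in
theorem d_norm : ∀ i j : Fin 8, ∃ i' : Fin 8, ∃ j' : Fin 4,
    (e8 i' = e8 i ∧ e4 j' = e8 j) ∨ (e8 i' = -e8 i ∧ e4 j' = -e8 j) := by decide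

set_option maxRecDepth 100000 in
theorem d_cen1 : ∀ i j : Fin 8, (e8 i * qi) * 1 * (1 * e8 j) = (qi * e8 i) * 1 * (e8 j * 1) →
    (e8 i * qj) * 1 * (1 * e8 j) = (qj * e8 i) * 1 * (e8 j * 1) → e8 i = 1 ∨ e8 i = -1 := by
  decide

set_option maxRecDepth 100000 in
theorem d_cen2 : ∀ i a c j : Fin 8, (e8 i = 1 ∨ e8 i = -1) →
    (e8 i * e8 a) * 1 * (e8 c * e8 j) = (e8 a * e8 i) * 1 * (e8 j * e8 c) →
    e8 c * e8 j = e8 j * e8 c := by decide

set_option maxRecDepth 100000 in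
theorem d_cen3 : ∀ j c1 c2 : Fin 8, e8 c1 ≠ 1 → e8 c1 ≠ -1 → e8 c2 ≠ 1 → e8 c2 ≠ -1 →
    e8 c2 * e8 c1 ≠ 1 → e8 c2 * e8 c1 ≠ -1 → e8 c1 * e8 j = e8 j * e8 c1 →
    e8 c2 * e8 j = e8 j * e8 c2 → e8 j = 1 ∨ e8 j = -1 := by decide

theorem d_ijk : qi * qj = qk := by decide

theorem d_e0 : e8 0 = 1 := rfl

section lr

variable {G : Type u} [Group G] {V : Type v} [AddCommGroup V] [Module (ZMod 3) V]
  (ρ : Representation (ZMod 3) G V) (φ : V ≃ₗ[ZMod 3] H)

theorem lr_mul {g g' : G} {α γ α' γ' : H} (h : LR ρ φ g α γ) (h' : LR ρ φ g' α' γ') :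
    LR ρ φ (g * g') (α * α') (γ' * γ) := by
  intro v
  rw [map_mul]
  show φ (ρ g (ρ g' v)) = _
  rw [h, h']
  simp only [mul_assoc]

theorem lr_one : LR ρ φ 1 1 1 := by
  intro v
  simp

theorem lr_eq (hf : Function.Injective ρ) {g g' : G} {α γ α' γ' : H} (h : LR ρ φ g α γ)
    (h' : LR ρ φ g' α' γ') (heq : ∀ x : H, α * x * γ = α' * x * γ') : g = g' := by
  apply hf
  apply LinearMap.ext
  intro v
  apply φ.injective
  rw [h, h', heq]

theorem lr_all {g : G} {α γ α' γ' : H} (h : LR ρ φ g α γ) (h' : LR ρ φ g α' γ') (x : H) :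
    α * x * γ = α' * x * γ' := by
  have h1 := h (φ.symm x)
  have h2 := h' (φ.symm x)
  have h3 := h1.symm.trans h2
  simpa using h3

end lr

/-- [X-R3] -/
theorem pkgXR3 : PkgXR3.{u, v} := by
  intro _hFin G _ _ V _ _ _ ρ R b Q N z x y φ hC hQ
  classical
  have hf : Function.Injective ρ := hC.setup.faith
  obtain ⟨hzN, hz1, hzv, -, -, -, -⟩ := hC.extra
  have hzR : z ∈ R := hC.NR hzN
  have lz : LR ρ φ z (-1) 1 := by
    intro v
    rw [hzv]
    simp
  have lx : LR ρ φ x qi 1 := by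
    intro v
    rw [hC.mx]
    simp
  have ly : LR ρ φ y qj 1 := by
    intro v
    rw [hC.my]
    simp
  have hR8 : ∀ r ∈ R, ∃ i j : Fin 8, LR ρ φ r (e8 i) (e8 j) := by
    intro r hr
    obtain ⟨p, γ, hp, hγ, hl⟩ := hQ r hr
    obtain ⟨i, rfl⟩ := q8_exists p hp
    obtain ⟨j, rfl⟩ := q8_exists γ hγ
    exact ⟨i, j, hl⟩
  have hpm : ∀ g : G, ∀ α γ : H, LR ρ φ g α γ → (α = 1 ∨ α = -1) → (γ = 1 ∨ γ = -1) →
      g = 1 ∨ g = z := by
    intro g α γ hl hα hγ
    rcases hα with rfl | rfl <;> rcases hγ with rfl | rfl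
    · left
      exact lr_eq ρ φ hf hl (lr_one ρ φ) (fun _ => rfl)
    · right
      exact lr_eq ρ φ hf hl lz (fun x => by simp)
    · right
      exact lr_eq ρ φ hf hl lz (fun x => rfl)
    · left
      exact lr_eq ρ φ hf hl (lr_one ρ φ) (fun x => by simp)
  have hb : ∀ r ∈ R, r * r = 1 ∨ r * r = z := by
    intro r hr
    obtain ⟨i, j, hl⟩ := hR8 r hr
    exact hpm (r * r) _ _ (lr_mul ρ φ hl hl) (d_sq i) (d_sq j)
  have hc : ∀ r ∈ R, ∀ r' ∈ R, r * r' = r' * r ∨ r * r' = z * r' * r := by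
    intro r hr r' hr'
    obtain ⟨i, j, hl⟩ := hR8 r hr
    obtain ⟨i', j', hl'⟩ := hR8 r' hr'
    have h1 := lr_mul ρ φ hl hl'
    have h2 := lr_mul ρ φ hl' hl
    have h3 := lr_mul ρ φ (lr_mul ρ φ lz hl') hl
    rcases d_comm i i' with ha | ha <;> rcases d_comm j' j with hb' | hb'
    · left
      exact lr_eq ρ φ hf h1 h2 (fun x => by rw [ha, hb'])
    · right
      exact lr_eq ρ φ hf h1 h3 (fun x => by rw [ha, hb']; simp)
    · right
      exact lr_eq ρ φ hf h1 h3 (fun x => by rw [ha, hb']; simp)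
    · left
      exact lr_eq ρ φ hf h1 h2 (fun x => by rw [ha, hb']; simp)
  -- the frame
  obtain ⟨q₁, q₂, w₁, w₂, w₃, hq1Q, hq2Q, hq1, hq2, hq12, hq12c, hQall, hbq1, hbq2, hbw1, hbw2,
    hbw3, hw1, h11, h12, h13, h21, h22, h23, hdec, huniq⟩ := hC.frame
  have hw3 : w₃ ≠ 0 := by
    intro h
    apply hw1
    rw [← hbw3, h, map_zero]
  have hw2 : w₂ ≠ 0 := by
    intro h
    apply hw3
    rw [← hbw2, h, map_zero]
  have hq1sq : q₁ * q₁ = 1 := hC.setup.Q2 q₁ hq1Q
  have hfix12 : ρ (q₁ * q₂) w₃ = w₃ := by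
    rw [map_mul]
    show ρ q₁ (ρ q₂ w₃) = w₃
    rw [h23, map_neg, h13, neg_neg]
  have hq12ne : q₁ * q₂ ≠ 1 := by
    intro h
    apply hq12
    calc q₁ = q₁ * (q₁ * q₂) := by rw [h, mul_one]
      _ = (q₁ * q₁) * q₂ := by rw [mul_assoc]
      _ = q₂ := by rw [hq1sq, one_mul]
  have hW : ∀ u ∈ Q, ∃ w : V, w ≠ 0 ∧ ρ u w = w := by
    intro u hu
    rcases hQall u hu with rfl | rfl | rfl | rfl
    · exact ⟨w₁, hw1, by simp⟩
    · exact ⟨w₁, hw1, h11⟩
    · exact ⟨w₂, hw2, h22⟩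
    · exact ⟨w₃, hw3, hfix12⟩
  have hcan : ∀ i j : Fin 8, ∀ w : V, w ≠ 0 → e8 i * φ w = e8 j * φ w → i = j := by
    intro i j w hw h
    have h0 : φ w ≠ 0 := by
      intro h0
      exact hw (φ.map_eq_zero_iff.mp h0)
    rcases d_cancel i j ((φ w).re, (φ w).imI, (φ w).imJ, (φ w).imK)
      (by rw [mkH_eta]; exact h) with h1 | h1
    · rw [mkH_eta] at h1
      exact absurd h1 h0
    · exact h1
  have hV : ∀ q : G, ∀ a c : Fin 8, LR ρ φ q (e8 a) (e8 c) → (e8 c = 1 ∨ e8 c = -1) →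
      (∃ w : V, w ≠ 0 ∧ ρ q w = w) → q = 1 := by
    intro q a c hl hc' ⟨w, hw, hqw⟩
    have h1 := hl w
    rw [hqw] at h1
    rcases hc' with hc' | hc'
    · rw [hc', mul_one] at h1
      have h2 : a = 0 := (hcan 0 a w hw (by rw [d_e0, one_mul]; exact h1)).symm
      subst h2
      rw [hc'] at hl
      exact lr_eq ρ φ hf hl (lr_one ρ φ) (fun x => by rw [d_e0])
    · obtain ⟨k, hk⟩ := d_neg a
      rw [hc', mul_neg, mul_one, ← neg_mul, hk] at h1
      have h2 : k = 0 := (hcan 0 k w hw (by rw [d_e0, one_mul]; exact h1)).symm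
      subst h2
      rw [d_e0] at hk
      have ha : e8 a = -1 := by rw [← hk, neg_neg]
      rw [hc', ha] at hl
      exact lr_eq ρ φ hf hl (lr_one ρ φ) (fun x => by simp)
  have hd : ∀ r ∈ R, (∀ s ∈ R, r * s = s * r) → r = 1 ∨ r = z := by
    intro r hr hcen
    obtain ⟨i, j, hl⟩ := hR8 r hr
    have hxR : x ∈ R := hC.NR hC.xN
    have hyR : y ∈ R := hC.NR hC.yN
    have hi : e8 i = 1 ∨ e8 i = -1 := by
      apply d_cen1 i j
      · have h1 := lr_mul ρ φ hl lx
        have h2 := lr_mul ρ φ lx hl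
        rw [hcen x hxR] at h1
        exact lr_all ρ φ h1 h2 1
      · have h1 := lr_mul ρ φ hl ly
        have h2 := lr_mul ρ φ ly hl
        rw [hcen y hyR] at h1
        exact lr_all ρ φ h1 h2 1
    have hq1R := hC.setup.QR hq1Q
    have hq2R := hC.setup.QR hq2Q
    obtain ⟨a1, c1, hl1⟩ := hR8 q₁ hq1R
    obtain ⟨a2, c2, hl2⟩ := hR8 q₂ hq2R
    have hc1 : e8 c1 ≠ 1 ∧ e8 c1 ≠ -1 := by
      constructor
      · intro h
        exact hq1 (hV q₁ a1 c1 hl1 (Or.inl h) ⟨w₁, hw1, h11⟩)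
      · intro h
        exact hq1 (hV q₁ a1 c1 hl1 (Or.inr h) ⟨w₁, hw1, h11⟩)
    have hc2 : e8 c2 ≠ 1 ∧ e8 c2 ≠ -1 := by
      constructor
      · intro h
        exact hq2 (hV q₂ a2 c2 hl2 (Or.inl h) ⟨w₂, hw2, h22⟩)
      · intro h
        exact hq2 (hV q₂ a2 c2 hl2 (Or.inr h) ⟨w₂, hw2, h22⟩)
    have hc12 : e8 c2 * e8 c1 ≠ 1 ∧ e8 c2 * e8 c1 ≠ -1 := by
      have hl12 := lr_mul ρ φ hl1 hl2
      obtain ⟨ka, hka⟩ := d_mul a1 a2
      obtain ⟨kc, hkc⟩ := d_mul c2 c1
      rw [hka, hkc] at hl12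
      rw [hkc]
      constructor
      · intro h
        exact hq12ne (hV _ ka kc hl12 (Or.inl h) ⟨w₃, hw3, hfix12⟩)
      · intro h
        exact hq12ne (hV _ ka kc hl12 (Or.inr h) ⟨w₃, hw3, hfix12⟩)
    have hj : e8 j = 1 ∨ e8 j = -1 := by
      apply d_cen3 j c1 c2 hc1.1 hc1.2 hc2.1 hc2.2 hc12.1 hc12.2
      · apply d_cen2 i a1 c1 j hi
        have h1 := lr_mul ρ φ hl hl1
        have h2 := lr_mul ρ φ hl1 hl
        rw [hcen q₁ hq1R] at h1
        exact lr_all ρ φ h1 h2 1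
      · apply d_cen2 i a2 c2 j hi
        have h1 := lr_mul ρ φ hl hl2
        have h2 := lr_mul ρ φ hl2 hl
        rw [hcen q₂ hq2R] at h1
        exact lr_all ρ φ h1 h2 1
    exact hpm r _ _ hl hi hj
  have hcard : Nat.card ↥R = 32 := by
    apply le_antisymm
    · have hex : ∀ r : ↥R, ∃ p : Fin 8 × Fin 4, LR ρ φ (r : G) (e8 p.1) (e4 p.2) := by
        intro r
        obtain ⟨i, j, hl⟩ := hR8 r r.2
        obtain ⟨i', j', h | h⟩ := d_norm i j
        · exact ⟨(i', j'), by rw [h.1, h.2]; exact hl⟩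
        · refine ⟨(i', j'), ?_⟩
          rw [h.1, h.2]
          intro v
          rw [hl v]
          simp
      choose f hfl using hex
      have hinj : Function.Injective f := by
        intro r r' h
        apply Subtype.ext
        have h1 := hfl r
        have h2 := hfl r'
        rw [h] at h1
        exact lr_eq ρ φ hf h1 h2 (fun _ => rfl)
      have h3 := Nat.card_le_card_of_injective f hinj
      simpa using h3
    · let P : Fin 8 → G := ![1, z, x, z * x, y, z * y, x * y, z * (x * y)]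
      have hPN : ∀ i, P i ∈ N := by
        intro i
        fin_cases i
        · exact N.one_mem
        · exact hzN
        · exact hC.xN
        · exact N.mul_mem hzN hC.xN
        · exact hC.yN
        · exact N.mul_mem hzN hC.yN
        · exact N.mul_mem hC.xN hC.yN
        · exact N.mul_mem hzN (N.mul_mem hC.xN hC.yN)
      have hPl : ∀ i, LR ρ φ (P i) (e8 i) 1 := by
        intro i
        fin_cases i
        · exact lr_one ρ φ
        · exact lz
        · exact lx
        · have h := lr_mul ρ φ lz lx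
          intro v
          have h' := h v
          simpa [P, e8] using h'
        · exact ly
        · have h := lr_mul ρ φ lz ly
          intro v
          have h' := h v
          simpa [P, e8] using h'
        · have h := lr_mul ρ φ lx ly
          rw [d_ijk] at h
          intro v
          have h' := h v
          simpa [P, e8] using h'
        · have h := lr_mul ρ φ lz (lr_mul ρ φ lx ly)
          rw [d_ijk] at h
          intro v
          have h' := h v
          simpa [P, e8] using h'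
      let g : Fin 8 × ↥Q → ↥R := fun p =>
        ⟨P p.1 * (p.2 : G), R.mul_mem (hC.NR (hPN p.1)) (hC.setup.QR p.2.2)⟩
      have hginj : Function.Injective g := by
        rintro ⟨i, q⟩ ⟨i', q'⟩ h
        have h0 : P i * (q : G) = P i' * (q' : G) := congrArg Subtype.val h
        have hqq : (q : G) * (q : G) = 1 := hC.setup.Q2 _ q.2
        have h1 : P i = P i' * ((q' : G) * (q : G)) := by
          calc P i = P i * ((q : G) * (q : G)) := by rw [hqq, mul_one]
            _ = (P i * (q : G)) * (q : G) := by rw [mul_assoc]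
            _ = (P i' * (q' : G)) * (q : G) := by rw [h0]
            _ = P i' * ((q' : G) * (q : G)) := by rw [mul_assoc]
        obtain ⟨w, hw, hfix⟩ := hW _ (Q.mul_mem q'.2 q.2)
        have h2 : e8 i * φ w = e8 i' * φ w := by
          have e1 := hPl i w
          have e2 := hPl i' w
          rw [mul_one] at e1 e2
          rw [← e1, ← e2, h1, map_mul]
          show φ (ρ (P i') (ρ ((q' : G) * (q : G)) w)) = _
          rw [hfix]
        have hii : i = i' := hcan i i' w hw h2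
        subst hii
        have h3 : (q' : G) * (q : G) = 1 := by
          have h4 : P i * ((q' : G) * (q : G)) = P i * 1 := by rw [mul_one]; exact h1.symm
          exact mul_left_cancel h4
        have h4 : (q' : G) = (q : G) := by
          calc (q' : G) = (q' : G) * ((q : G) * (q : G)) := by rw [hqq, mul_one]
            _ = ((q' : G) * (q : G)) * (q : G) := by rw [mul_assoc]
            _ = (q : G) := by rw [h3, one_mul]
        exact Prod.ext rfl (Subtype.ext h4.symm)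
      have h5 := Nat.card_le_card_of_injective g hginj
      rw [Nat.card_prod, hC.setup.Q4] at h5
      simpa using h5
  exact ⟨hzR, hzv, hcard, hb, hc, hd⟩

end Cfsg.Agent.Lib.Helper48.S4415
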